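import Groth.Agent.LoccohB.GorFibre3

/-!
# Gorenstein rings: localizations, and local rings of fibres
-/

set_option autoImplicit false

universe u

open TensorProduct

namespace Groth.Agent.Dual.H333.GorLoc

open Groth.Agent.LoccohB Groth.Agent.LoccohB.GorFibre3 Groth.Agent.LoccohB.GorBasic LocCoh

/-- A local ring which is a localization of a Gorenstein ring is a Gorenstein local ring. -/
theorem isGorensteinLocalRing_of_isLocalization {R S : Type u} [CommRing R] [CommRing S]
    [Algebra R S] (M : Submonoid R) [IsLocalization M S] [IsLocalRing S]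
    (h : IsGorensteinRing R) : IsGorensteinLocalRing S := by
  let m := IsLocalRing.maximalIdeal S
  let p := m.comap (algebraMap R S)
  have h1 : IsLocalization.AtPrime S m :=
    IsLocalization.of_le_isUnit (fun x => by
      rintro hx
      by_contra hc
      exact hx ((IsLocalRing.mem_maximalIdeal x).2 hc))
  have h2 : IsLocalization.AtPrime S p :=
    IsLocalization.isLocalization_isLocalization_atPrime_isLocalization M S m
  exact isGorensteinLocalRing_of_ringEquiv
    (IsLocalization.algEquiv p.primeCompl (Localization.AtPrime p) S).toRingEquiv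
    (h.isGorensteinLocalRing_localization p)

/-- Local rings of the fibres of a map all of whose fibres are Gorenstein. -/
theorem isGorensteinLocalRing_quotient {A B A' B' : Type u} [CommRing A] [CommRing B] [CommRing A']
    [CommRing B'] [Algebra A B] [Algebra A A'] [Algebra A' B'] [Algebra B B'] [Algebra A B']
    [IsScalarTower A A' B'] [IsScalarTower A B B'] (N : Submonoid A) [IsLocalization N A']
    (M : Submonoid B) [IsLocalization M B'] (I : Ideal A')
    (hloc : IsLocalRing (B' ⧸ I.map (algebraMap A' B')))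
    (h : IsGorensteinRing (B ⊗[A] (A' ⧸ I))) :
    IsGorensteinLocalRing (B' ⧸ I.map (algebraMap A' B')) := by
  let _ : Algebra (B ⊗[A] (A' ⧸ I)) (B' ⊗[A] (A' ⧸ I)) :=
    (Algebra.TensorProduct.map (IsScalarTower.toAlgHom A B B')
      (AlgHom.id A (A' ⧸ I))).toRingHom.toAlgebra
  have hl : IsLocalization (Algebra.algebraMapSubmonoid (B ⊗[A] (A' ⧸ I)) M)
      (B' ⊗[A] (A' ⧸ I)) := isLocalization_tensor (A' ⧸ I) M
  let e1 : B' ⊗[A'] (A' ⧸ I) ≃ₐ[A'] B' ⊗[A] (A' ⧸ I) :=
    IsLocalization.algebraTensorEquiv N A' B' (A' ⧸ I)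
  let e2 : (B' ⧸ I.map (algebraMap A' B')) ≃ₐ[B'] B' ⊗[A'] (A' ⧸ I) :=
    Algebra.TensorProduct.quotIdealMapEquivTensorQuot B' I
  let e : (B' ⧸ I.map (algebraMap A' B')) ≃+* B' ⊗[A] (A' ⧸ I) :=
    e2.toRingEquiv.trans e1.toRingEquiv
  have : IsLocalRing (B' ⊗[A] (A' ⧸ I)) := e.isLocalRing
  exact isGorensteinLocalRing_of_ringEquiv e.symm
    (isGorensteinLocalRing_of_isLocalization
      (Algebra.algebraMapSubmonoid (B ⊗[A] (A' ⧸ I)) M) h)

end Groth.Agent.Dual.H333.GorLoc
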