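import Groth.Prelude.Def_Dual3
import Groth.Agent.Dual.H333.GorLoc
import Groth.Agent.Flat2D.FiberStalk
import Mathlib.AlgebraicGeometry.Morphisms.Flat
import Mathlib.AlgebraicGeometry.Morphisms.FiniteType

/-!
# Local complete intersection morphisms: finite type, and flat ones are Gorenstein
-/

set_option autoImplicit false

universe u

open CategoryTheory CategoryTheory.Limits AlgebraicGeometry IsLocalRing TensorProduct

namespace Groth.Agent.Dual.H333.LciGor

open Groth.Agent.LoccohB.GorFibre3 Groth.Agent.LoccohB.GorBasic Groth.Agent.Flat2D.FiberStalk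

variable {X Y : Scheme.{u}} (f : X ⟶ Y)

/-- A local complete intersection morphism is locally of finite type. -/
theorem locallyOfFiniteType_of_isLCIMor (hf : Dual3.IsLCIMor f) : LocallyOfFiniteType f := by
  rw [HasRingHomProperty.iff_exists_appLE (P := @LocallyOfFiniteType)
    (RingHom.finiteType_stableUnderComposition.stableUnderCompositionWithLocalizationAway
      RingHom.finiteType_holdsForLocalizationAway).left]
  intro x
  obtain ⟨U, V, e, hx, h⟩ := hf x
  exact ⟨V, U, hx, e, h.1⟩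

/-- The local rings of the fibres, from an affine chart. -/
theorem isGorensteinAt_of_chart (x : X) (V : Y.Opens) (hV : IsAffineOpen V) (U : X.Opens)
    (hU : IsAffineOpen U) (e : U ≤ f ⁻¹ᵁ V) (hx : x ∈ U) (hfl : (f.stalkMap x).hom.Flat)
    (h : letI := (f.appLE V U e).hom.toAlgebra
      ∀ (k : Type u) [Field k] [Algebra Γ(Y, V) k], LocCoh.IsGorensteinRing (Γ(X, U) ⊗[Γ(Y, V)] k)) :
    Dual3.IsGorensteinAt f x := by
  refine ⟨hfl, ?_⟩
  obtain ⟨eq⟩ := nonempty_asFiber_stalkEquiv' f x
  refine isGorensteinLocalRing_of_ringEquiv eq ?_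
  let _ : Algebra Γ(Y, V) Γ(X, U) := (f.appLE V U e).hom.toAlgebra
  let _ : Algebra Γ(Y, V) (Y.presheaf.stalk (f x)) :=
    Y.presheaf.algebra_section_stalk ⟨f x, e hx⟩
  let _ : Algebra Γ(X, U) (X.presheaf.stalk x) := X.presheaf.algebra_section_stalk ⟨x, hx⟩
  let _ : Algebra (Y.presheaf.stalk (f x)) (X.presheaf.stalk x) := (f.stalkMap x).hom.toAlgebra
  let _ : Algebra Γ(Y, V) (X.presheaf.stalk x) :=
    ((f.stalkMap x).hom.comp (algebraMap Γ(Y, V) (Y.presheaf.stalk (f x)))).toAlgebra
  have t1 : IsScalarTower Γ(Y, V) (Y.presheaf.stalk (f x)) (X.presheaf.stalk x) :=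
    IsScalarTower.of_algebraMap_eq fun a => rfl
  have t2 : IsScalarTower Γ(Y, V) Γ(X, U) (X.presheaf.stalk x) :=
    IsScalarTower.of_algebraMap_eq fun a => by
      change (f.stalkMap x).hom ((Y.presheaf.germ V (f x) (e hx)).hom a) =
        (X.presheaf.germ U x hx).hom ((f.appLE V U e).hom a)
      have h1 : Y.presheaf.germ V (f x) (e hx) ≫ f.stalkMap x =
          f.appLE V U e ≫ X.presheaf.germ U x hx := by
        rw [Scheme.Hom.germ_stalkMap, Scheme.Hom.appLE, Category.assoc, X.presheaf.germ_res]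
      exact congr(($h1).hom a)
  have l1 := hV.isLocalization_stalk ⟨f x, e hx⟩
  have l2 := hU.isLocalization_stalk ⟨x, hx⟩
  have hk : IsField (Y.presheaf.stalk (f x) ⧸ maximalIdeal (Y.presheaf.stalk (f x))) :=
    Ideal.Quotient.maximal_ideal_iff_isField_quotient _ |>.1 inferInstance
  let _ := hk.toField
  exact GorLoc.isGorensteinLocalRing_quotient
    (hV.primeIdealOf ⟨f x, e hx⟩).asIdeal.primeCompl
    (hU.primeIdealOf ⟨x, hx⟩).asIdeal.primeCompl
    (maximalIdeal (Y.presheaf.stalk (f x))) (inferInstanceAs (IsLocalRing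
      (X.presheaf.stalk x ⧸ fibreIdeal f x))) (h _)

/-- A flat local complete intersection morphism is a Gorenstein morphism. -/
theorem isGorensteinMor_of_flat_of_isLCIMor [Flat f] (hf : Dual3.IsLCIMor f) :
    Dual3.IsGorensteinMor f := by
  intro x
  obtain ⟨U, V, e, hx, h⟩ := hf x
  refine isGorensteinAt_of_chart f x V.1 V.2 U.1 U.2 e hx ((Flat.iff_flat_stalkMap f).1 ‹_› x) ?_
  intro k _ _
  let _ : Algebra Γ(Y, V.1) Γ(X, U.1) := (f.appLE V.1 U.1 e).hom.toAlgebra
  have hfl : Module.Flat Γ(Y, V.1) Γ(X, U.1) := f.flat_appLE V.2 U.2 e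
  exact isGorensteinRing_tensor_of_flat_isLCI _ _ k h (isGorensteinRing_of_field k)

end Groth.Agent.Dual.H333.LciGor
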